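import Cfsg.Agent.LThreeFi22.Inst
import Cfsg.Agent.R08.AutT
import Cfsg.Agent.S0283

/-!
# A subgroup `Fi22` of a group and its 3510 transpositions (helper153)

`FiSet N D` : the facts on the class `D` of the transpositions of a subgroup `N` isomorphic to `Fi22`;
`fiSet e : FiSet N (D e)`.
-/

set_option autoImplicit false
set_option linter.unusedSectionVars false

namespace Cfsg.Agent.H153.FH

open Subgroup Cfsg Cfsg.Agent.LThreeFi22
open Cfsg.Agent.KFacts.FiTT (TK)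
open scoped commutatorElement

universe v

/-! ### In the group `Fi22` -/

section K

variable {K : Type v} [Group K] {T : Set K}

/-- automorphisms preserve the transpositions -/
theorem aut_TK (e : K ≃* Spor.Fi22) (α : K ≃* K) {t : K} (ht : t ∈ TK e) : α t ∈ TK e := by
  rw [Inst.mem_TK] at ht ⊢
  have h := R08.AutT.aut_mem ((e.symm.trans α).trans e) ht
  simpa using h

/-- `C(d) / <d>` is simple and `C(d)` is perfect -/
theorem quot_TK (e : K ≃* Spor.Fi22) {d : K} (hd : d ∈ TK e) {P : Subgroup K}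
    (hP : P ≤ centralizer ({d} : Set K)) (hn : ∀ c ∈ centralizer ({d} : Set K), ∀ p ∈ P, c * p * c⁻¹ ∈ P) :
    P ≤ zpowers d ∨ P = centralizer ({d} : Set K) := by
  obtain ⟨π, lift, B⟩ := Inst.base_at e hd
  have ex := B.lab.ext
  have hs : IsSimpleGroup (PSU 6 SporRec.GF4.F4 2) :=
    S0283.result Fischer.Unit22.hF 6 (by norm_num) (by norm_num)
  let P' : Subgroup ↥(centralizer ({d} : Set K)) := P.subgroupOf _
  have hN : P'.Normal := ⟨fun p hp c => by
    rw [mem_subgroupOf] at hp ⊢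
    exact hn c.1 c.2 p.1 hp⟩
  have hN' : (P'.map π).Normal := hN.map _ ex.surj
  rcases hN'.eq_bot_or_eq_top with h | h
  · left
    intro p hp
    have h1 : π ⟨p, hP hp⟩ = 1 := by
      have : π ⟨p, hP hp⟩ ∈ P'.map π := mem_map_of_mem _ (mem_subgroupOf.2 hp)
      rw [h] at this
      exact mem_bot.1 this
    rcases (ex.ker _).1 h1 with h2 | h2
    · have : p = 1 := congrArg Subtype.val h2
      rw [this]
      exact one_mem _
    · have : p = d := congrArg Subtype.val h2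
      rw [this]
      exact mem_zpowers d
  · right
    apply le_antisymm hP
    have key : ∀ a : ↥(centralizer ({d} : Set K)), ∃ p ∈ P', a = p ∨ a = p * Cfsg.Agent.R01.Start.zel d := by
      intro a
      have ha : π a ∈ P'.map π := by rw [h]; exact mem_top _
      obtain ⟨p, hp, hpa⟩ := ha
      exact ⟨p, hp, ex.map_eq.1 hpa.symm⟩
    have hz := ex.comm
    have hcom : ∀ a b : ↥(centralizer ({d} : Set K)), ⁅a, b⁆ ∈ P' := by
      intro a b
      obtain ⟨p, hp, ha⟩ := key a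
      obtain ⟨q, hq, hb⟩ := key b
      have h1 : ⁅a, b⁆ = ⁅p, q⁆ := by
        set z := Cfsg.Agent.R01.Start.zel d with hzd
        have c1 : ∀ x y : ↥(centralizer ({d} : Set K)), ⁅x * z, y⁆ = ⁅x, y⁆ := by
          intro x y
          rw [commutatorElement_def, commutatorElement_def]
          calc x * z * y * (x * z)⁻¹ * y⁻¹ = x * (z * y) * z⁻¹ * x⁻¹ * y⁻¹ := by group
            _ = x * (y * z) * z⁻¹ * x⁻¹ * y⁻¹ := by rw [hz y]
            _ = x * y * x⁻¹ * y⁻¹ := by group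
        have c2 : ∀ x y : ↥(centralizer ({d} : Set K)), ⁅x, y * z⁆ = ⁅x, y⁆ := by
          intro x y
          rw [← commutatorElement_inv, c1, commutatorElement_inv]
        rcases ha with ha | ha <;> rcases hb with hb | hb <;> rw [ha, hb]
        · exact c2 _ _
        · exact c1 _ _
        · rw [c1, c2]
      rw [h1]
      rw [commutatorElement_def]
      exact P'.mul_mem (P'.mul_mem (P'.mul_mem hp hq) (P'.inv_mem hp)) (P'.inv_mem hq)
    have h2 : commutator ↥(centralizer ({d} : Set K)) ≤ P' := by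
      rw [_root_.commutator_def, commutator_le]
      intro a _ b _
      exact hcom a b
    rw [B.lab.perf] at h2
    intro c hc
    exact mem_subgroupOf.1 (h2 (mem_top ⟨c, hc⟩))

/-- two transpositions commuting with an element of order 7 do not commute and their product has order 3 -/
theorem seven_TK (C : Ctx K T) {y : K} (hy : y ^ 7 = 1) (hy1 : y ≠ 1) {a b : K} (ha : a ∈ T) (hb : b ∈ T)
    (hya : y * a = a * y) (hyb : y * b = b * y) (hab : a ≠ b) :
    a * b ≠ b * a ∧ {t | t ∈ T ∧ y * t = t * y} = {a, b, a * b * a} := by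
  have := C.finite
  have h1 : a * b ≠ b * a := fun h => hab (C.seven_comm hy hy1 ⟨hb, hyb⟩ ⟨ha, hya⟩ h.symm)
  refine ⟨h1, ?_⟩
  have ai := C.inv ha
  have hc : a * b * a ∈ T := by
    have := C.conj b hb a
    rwa [ai] at this
  have hyc : y * (a * b * a) = a * b * a * y := by
    calc y * (a * b * a) = (y * a) * b * a := by group
      _ = a * (y * b) * a := by rw [hya]; group
      _ = a * b * (y * a) := by rw [hyb]; group
      _ = a * b * a * y := by rw [hya]; group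
  have n1 : a ≠ a * b * a := by
    intro h
    have h2 : a * a = a * (a * b * a) := congrArg (a * ·) h
    have h3 : a * (a * b * a) = b * a := by
      calc a * (a * b * a) = (a * a) * (b * a) := by group
        _ = b * a := by rw [C.sq a ha, one_mul]
    rw [h3] at h2
    exact hab (mul_right_cancel h2)
  have n2 : b ≠ a * b * a := by
    intro h
    apply h1
    have h2 : a * (a * b * a) = b * a := by
      calc a * (a * b * a) = (a * a) * (b * a) := by group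
        _ = b * a := by rw [C.sq a ha, one_mul]
    rw [← h] at h2
    exact h2
  symm
  apply Set.eq_of_subset_of_ncard_le
  · rintro x (rfl | rfl | rfl)
    · exact ⟨ha, hya⟩
    · exact ⟨hb, hyb⟩
    · exact ⟨hc, hyc⟩
  · have h3 : {t | t ∈ T ∧ y * t = t * y}.ncard = 3 := C.seven_card hy hy1
    rw [h3, Set.ncard_eq_three.2 ⟨a, b, a * b * a, hab, n1, n2, rfl⟩]
  · exact Set.toFinite _

/-- sets of transpositions commuting with an element of order 5 -/
theorem five_TK (C : Ctx K T) {u : K} (hu : u ^ 5 = 1) (hu1 : u ≠ 1) {d : K} {E : Set K} (hE : E ⊆ T) (hd : d ∈ E)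
    (hud : u * d = d * u) (hcl : ∀ x ∈ E, d * x * d ∈ E) (hn : ∀ x ∈ E, x ≠ d → d * x ≠ x * d) :
    Odd {x | x ∈ E ∧ u * x = x * u}.ncard ∧ {x | x ∈ E ∧ u * x = x * u}.ncard ≤ 7 := by
  classical
  have := C.finite
  have : Fintype K := Fintype.ofFinite K
  have dd := C.sq d (hE hd)
  have hdi := C.inv (hE hd)
  set Q : Set K := {x | (x ∈ E ∧ x ≠ d) ∧ u * x = x * u} with hQ
  have h1 : {x | x ∈ E ∧ u * x = x * u} = insert d Q := by
    ext x
    constructor
    · rintro ⟨h2, h3⟩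
      by_cases h4 : x = d
      · exact Or.inl h4
      · exact Or.inr ⟨⟨h2, h4⟩, h3⟩
    · rintro (rfl | ⟨⟨h2, -⟩, h3⟩)
      · exact ⟨hd, hud⟩
      · exact ⟨h2, h3⟩
  have h2 : d ∉ Q := fun h => h.1.2 rfl
  rw [h1, Set.ncard_insert_of_notMem h2 (Set.toFinite _)]
  have h6 : Q.ncard ≤ 6 := by
    rw [← (C.five_far hu hu1 (d := d) ⟨hE hd, hud⟩).2]
    refine Set.ncard_le_ncard ?_ (Set.toFinite _)
    rintro x ⟨⟨hx, hxd⟩, hux⟩
    exact ⟨⟨hE hx, hux⟩, hn x hx hxd⟩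
  have hev : Even Q.ncard := by
    have hud' : u * d = d * u := hud
    have h7 := fix_modEq Nat.prime_two (y := d) (by rw [pow_two, dd]) (S := Q) (by
      rintro x ⟨⟨hx, hxd⟩, hux⟩
      rw [hdi]
      refine ⟨⟨hcl x hx, ?_⟩, ?_⟩
      · intro h
        apply hxd
        have h8 : d * (d * x * d) * d = x := by
          calc d * (d * x * d) * d = (d * d) * x * (d * d) := by group
            _ = x := by rw [dd, one_mul, mul_one]
        rw [← h8, h, dd, one_mul]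
      · calc u * (d * x * d) = (u * d) * x * d := by group
          _ = d * (u * x) * d := by rw [hud']; group
          _ = d * x * (u * d) := by rw [hux]; group
          _ = d * x * d * u := by rw [hud']; group)
    have h8 : {s | s ∈ Q ∧ d * s = s * d} = ∅ := by
      rw [Set.eq_empty_iff_forall_notMem]
      rintro x ⟨⟨⟨hx, hxd⟩, -⟩, h⟩
      exact hn x hx hxd h
    rw [h8, Set.ncard_empty] at h7
    exact Nat.even_iff.2 h7
  refine ⟨hev.add_one, by omega⟩

end K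

/-! ### In a group containing `Fi22` -/

/-- the facts on the class `D` of transpositions of a subgroup `N` isomorphic to `Fi22` -/
structure FiSet {G : Type v} [Group G] (N : Subgroup G) (D : Set G) : Prop where
  card_N : Nat.card ↥N = 64561751654400
  simple : IsSimpleGroup ↥N
  sub : ∀ d ∈ D, d ∈ N
  gen : closure D = N
  ncard : D.ncard = 3510
  sq : ∀ d ∈ D, d * d = 1
  ne1 : ∀ d ∈ D, d ≠ 1
  conj : ∀ h ∈ normalizer (N : Set G), ∀ d ∈ D, h * d * h⁻¹ ∈ D
  three : ∀ a ∈ D, ∀ b ∈ D, a * b = b * a ∨ a * b * a = b * a * b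
  cube : ∀ a ∈ D, ∀ b ∈ D, a * b ≠ b * a → (a * b) ^ 3 = 1
  trans : ∀ a ∈ D, ∀ b ∈ D, ∃ g ∈ N, g * a * g⁻¹ = b
  transC : ∀ a ∈ D, ∀ b ∈ D, ∀ a' ∈ D, ∀ b' ∈ D, a ≠ b → a' ≠ b' → a * b = b * a → a' * b' = b' * a' →
    ∃ g ∈ N, g * a * g⁻¹ = a' ∧ g * b * g⁻¹ = b'
  transN : ∀ a ∈ D, ∀ b ∈ D, ∀ a' ∈ D, ∀ b' ∈ D, a * b ≠ b * a → a' * b' ≠ b' * a' →
    ∃ g ∈ N, g * a * g⁻¹ = a' ∧ g * b * g⁻¹ = b'
  link : ∀ d ∈ D, {c | c ∈ D ∧ c ≠ d ∧ d * c = c * d}.ncard = 693
  far : ∀ d ∈ D, {c | c ∈ D ∧ d * c ≠ c * d}.ncard = 2816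
  card_cent : ∀ d ∈ D, Nat.card ↥(N ⊓ centralizer ({d} : Set G)) = 18393661440
  quot : ∀ d ∈ D, ∀ J : Subgroup G, J ≤ N ⊓ centralizer ({d} : Set G) →
    (∀ c ∈ N ⊓ centralizer ({d} : Set G), ∀ j ∈ J, c * j * c⁻¹ ∈ J) →
      (∀ j ∈ J, j = 1 ∨ j = d) ∨ J = N ⊓ centralizer ({d} : Set G)
  cc : ∀ d ∈ D, ∀ g ∈ N, (∀ c ∈ N ⊓ centralizer ({d} : Set G), g * c = c * g) → g = 1 ∨ g = d
  seven : ∀ y ∈ N, y ^ 7 = 1 → y ≠ 1 → {t | t ∈ D ∧ y * t = t * y}.ncard = 3 ∧
    ∀ a ∈ D, ∀ b ∈ D, y * a = a * y → y * b = b * y → a ≠ b →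
      a * b ≠ b * a ∧ {t | t ∈ D ∧ y * t = t * y} = {a, b, a * b * a}
  ten : ∀ u ∈ N, u ^ 5 = 1 → u ≠ 1 → ∀ d ∈ D, u * d = d * u →
    {t | t ∈ D ∧ u * t = t * u}.ncard = 10 ∧ {t | t ∈ D ∧ u * t = t * u ∧ d * t ≠ t * d}.ncard = 6
  five : ∀ u ∈ N, u ^ 5 = 1 → u ≠ 1 → ∀ d : G, ∀ E : Set G, E ⊆ D → d ∈ E → u * d = d * u →
    (∀ x ∈ E, d * x * d ∈ E) → (∀ x ∈ E, x ≠ d → d * x ≠ x * d) →
      {x | x ∈ E ∧ u * x = x * u}.ncard % 5 ≠ 4

section G

variable {G : Type v} [Group G] {N : Subgroup G} (e : ↥N ≃* Spor.Fi22)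

/-- the transpositions of the subgroup -/
def D (e : ↥N ≃* Spor.Fi22) : Set G := Subtype.val '' TK e

theorem mem_D {x : G} : x ∈ D e ↔ ∃ h : x ∈ N, (⟨x, h⟩ : ↥N) ∈ TK e := by
  constructor
  · rintro ⟨y, hy, rfl⟩
    exact ⟨y.2, hy⟩
  · rintro ⟨h, h'⟩
    exact ⟨⟨x, h⟩, h', rfl⟩

theorem ncard_val (S : Set ↥N) : (Subtype.val '' S : Set G).ncard = S.ncard :=
  Set.ncard_image_of_injective _ Subtype.val_injective

/-- conjugation by an element of the normalizer -/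
def conjN {h : G} (hh : h ∈ normalizer (N : Set G)) : ↥N ≃* ↥N where
  toFun n := ⟨h * n.1 * h⁻¹, (mem_normalizer_iff.1 hh n.1).1 n.2⟩
  invFun n := ⟨h⁻¹ * n.1 * h, by
    have := (mem_normalizer_iff.1 (inv_mem hh) n.1).1 n.2
    rwa [inv_inv] at this⟩
  left_inv n := by
    apply Subtype.ext
    change h⁻¹ * (h * n.1 * h⁻¹) * h = n.1
    group
  right_inv n := by
    apply Subtype.ext
    change h * (h⁻¹ * n.1 * h) * h⁻¹ = n.1
    group
  map_mul' a b := by
    apply Subtype.ext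
    change h * (a.1 * b.1) * h⁻¹ = (h * a.1 * h⁻¹) * (h * b.1 * h⁻¹)
    group

/-- the centralizer inside `N` -/
theorem cent_map {d : G} (hd : d ∈ N) :
    (centralizer ({(⟨d, hd⟩ : ↥N)} : Set ↥N)).map N.subtype = N ⊓ centralizer ({d} : Set G) := by
  ext x
  rw [mem_map, mem_inf, mem_centralizer_singleton_iff]
  constructor
  · rintro ⟨y, hy, rfl⟩
    exact ⟨y.2, congrArg Subtype.val (mem_centralizer_singleton_iff.1 hy)⟩
  · rintro ⟨h1, h2⟩
    exact ⟨⟨x, h1⟩, mem_centralizer_singleton_iff.2 (Subtype.ext h2), rfl⟩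

theorem fiSet : FiSet N (D e) := by
  have C := Inst.ctx e
  have hfin := C.finite
  obtain ⟨d0, π0, lift0, B0⟩ := Cfsg.Agent.KFacts.FiTT.exists_base_of e
  have hcomm : ∀ {a b : ↥N}, a.1 * b.1 = b.1 * a.1 ↔ a * b = b * a := fun {a b} =>
    ⟨fun h => Subtype.ext h, fun h => congrArg Subtype.val h⟩
  refine
    { card_N := C.card
      simple := B0.simple
      sub := fun d hd => ((mem_D e).1 hd).1
      gen := ?_
      ncard := (ncard_val _).trans C.ncard
      sq := ?_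
      ne1 := ?_
      conj := ?_
      three := ?_
      cube := ?_
      trans := ?_
      transC := ?_
      transN := ?_
      link := ?_
      far := ?_
      card_cent := ?_
      quot := ?_
      cc := ?_
      seven := ?_
      ten := ?_
      five := ?_ }
  · have hs := B0.simple
    have hcl : closure (TK e) = ⊤ := by
      have hn : (closure (TK e)).Normal := by
        have h1 : normalClosure (TK e) = closure (TK e) := by
          apply le_antisymm
          · rw [normalClosure, closure_le]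
            intro x hx
            obtain ⟨a, ha, hc⟩ := Group.mem_conjugatesOfSet_iff.1 hx
            obtain ⟨g, rfl⟩ := isConj_iff.1 hc
            exact subset_closure (C.conj a ha g)
          · exact closure_le_normalClosure
        rw [← h1]
        exact normalClosure_normal
      rcases hn.eq_bot_or_eq_top with h | h
      · exfalso
        have h2 := subset_closure (k := TK e) B0.mem
        rw [h, SetLike.mem_coe, mem_bot] at h2
        exact C.ne1 _ B0.mem h2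
      · exact h
    change closure (N.subtype '' TK e) = N
    rw [← MonoidHom.map_closure, hcl, ← MonoidHom.range_eq_map, range_subtype]
  · rintro _ ⟨x, hx, rfl⟩
    exact congrArg Subtype.val (C.sq x hx)
  · rintro _ ⟨x, hx, rfl⟩ h
    exact C.ne1 x hx (Subtype.ext h)
  · rintro h hh _ ⟨x, hx, rfl⟩
    exact ⟨conjN hh x, aut_TK e (conjN hh) hx, rfl⟩
  · rintro _ ⟨a, ha, rfl⟩ _ ⟨b, hb, rfl⟩
    rcases C.three a ha b hb with h | h
    · exact Or.inl (congrArg Subtype.val h)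
    · exact Or.inr (congrArg Subtype.val h)
  · rintro _ ⟨a, ha, rfl⟩ _ ⟨b, hb, rfl⟩ h
    exact congrArg Subtype.val (C.cube ha hb (fun h' => h (hcomm.2 h')))
  · rintro _ ⟨a, ha, rfl⟩ _ ⟨b, hb, rfl⟩
    obtain ⟨g, hg⟩ := C.trans_one ha hb
    exact ⟨g.1, g.2, congrArg Subtype.val hg⟩
  · rintro _ ⟨a, ha, rfl⟩ _ ⟨b, hb, rfl⟩ _ ⟨a', ha', rfl⟩ _ ⟨b', hb', rfl⟩ h h' hc hc'
    obtain ⟨g, h1, h2⟩ := C.transC a ha b hb a' ha' b' hb' (fun h0 => h (by rw [h0])) (fun h0 => h' (by rw [h0]))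
      (hcomm.1 hc) (hcomm.1 hc')
    exact ⟨g.1, g.2, congrArg Subtype.val h1, congrArg Subtype.val h2⟩
  · rintro _ ⟨a, ha, rfl⟩ _ ⟨b, hb, rfl⟩ _ ⟨a', ha', rfl⟩ _ ⟨b', hb', rfl⟩ hc hc'
    obtain ⟨g, h1, h2⟩ := C.transN a ha b hb a' ha' b' hb' (fun h => hc (hcomm.2 h)) (fun h => hc' (hcomm.2 h))
    exact ⟨g.1, g.2, congrArg Subtype.val h1, congrArg Subtype.val h2⟩
  · rintro _ ⟨d, hd, rfl⟩
    rw [← C.link d hd, ← ncard_val]
    congr 1
    ext x
    constructor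
    · rintro ⟨⟨y, hy, rfl⟩, h1, h2⟩
      exact ⟨y, ⟨hy, fun h => h1 (by rw [h]), hcomm.1 h2⟩, rfl⟩
    · rintro ⟨y, ⟨hy, h1, h2⟩, rfl⟩
      exact ⟨⟨y, hy, rfl⟩, fun h => h1 (Subtype.ext h), hcomm.2 h2⟩
  · rintro _ ⟨d, hd, rfl⟩
    rw [← C.far hd, ← ncard_val]
    congr 1
    ext x
    constructor
    · rintro ⟨⟨y, hy, rfl⟩, h2⟩
      exact ⟨y, ⟨hy, fun h => h2 (hcomm.2 h)⟩, rfl⟩
    · rintro ⟨y, ⟨hy, h2⟩, rfl⟩
      exact ⟨⟨y, hy, rfl⟩, fun h => h2 (hcomm.1 h)⟩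
  · rintro _ ⟨d, hd, rfl⟩
    rw [← cent_map d.2, ← C.card_cent hd]
    exact (Nat.card_congr ((centralizer ({d} : Set ↥N)).equivMapOfInjective N.subtype N.subtype_injective).toEquiv).symm
  · rintro _ ⟨d, hd, rfl⟩ J hJ hn
    have hJN : J ≤ N := hJ.trans inf_le_left
    have h1 : J.subgroupOf N ≤ centralizer ({d} : Set ↥N) := by
      intro j hj
      rw [mem_subgroupOf] at hj
      exact mem_centralizer_singleton_iff.2 (hcomm.1 (mem_centralizer_singleton_iff.1 (hJ hj).2))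
    have h2 : ∀ c ∈ centralizer ({d} : Set ↥N), ∀ p ∈ J.subgroupOf N, c * p * c⁻¹ ∈ J.subgroupOf N := by
      intro c hc p hp
      rw [mem_subgroupOf] at hp ⊢
      exact hn c.1 ⟨c.2, mem_centralizer_singleton_iff.2 (hcomm.2 (mem_centralizer_singleton_iff.1 hc))⟩ p.1 hp
    rcases quot_TK e hd h1 h2 with h | h
    · left
      intro j hj
      have h3 := h (show (⟨j, hJN hj⟩ : ↥N) ∈ J.subgroupOf N from mem_subgroupOf.2 hj)
      obtain ⟨k, hk⟩ := mem_zpowers_iff.1 h3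
      have h4 : d ^ k = 1 ∨ d ^ k = d := by
        rcases Int.even_or_odd' k with ⟨m, hm | hm⟩
        · left
          rw [hm, zpow_mul, zpow_two, C.sq d hd, one_zpow]
        · right
          rw [hm, zpow_add, zpow_mul, zpow_two, C.sq d hd, one_zpow, one_mul, zpow_one]
      rcases h4 with h4 | h4
      · left
        rw [h4] at hk
        exact (congrArg Subtype.val hk).symm
      · right
        rw [h4] at hk
        exact (congrArg Subtype.val hk).symm
    · right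
      rw [← cent_map d.2, ← h]
      rw [subgroupOf_map_subtype, inf_eq_left.2 hJN]
  · rintro _ ⟨d, hd, rfl⟩ g hg h
    have h1 := Cfsg.Agent.KFacts.FiTT.cenJ e d hd ⟨g, hg⟩ (hcomm.1 (h d.1 ⟨d.2, mem_centralizer_singleton_iff.2 rfl⟩))
      (fun j hj => hcomm.1 (h j.1 ⟨j.2, mem_centralizer_singleton_iff.2 (hcomm.2 hj)⟩))
    rcases h1 with h1 | h1
    · exact Or.inl (congrArg Subtype.val h1)
    · exact Or.inr (congrArg Subtype.val h1)
  · intro y hy hy7 hy1
    set y' : ↥N := ⟨y, hy⟩ with hy'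
    have e7 : y' ^ 7 = 1 := Subtype.ext hy7
    have e1 : y' ≠ 1 := fun h => hy1 (congrArg Subtype.val h)
    have hset : {t | t ∈ D e ∧ y * t = t * y} = Subtype.val '' {t | t ∈ TK e ∧ y' * t = t * y'} := by
      ext x
      constructor
      · rintro ⟨⟨z, hz, rfl⟩, h2⟩
        exact ⟨z, ⟨hz, Subtype.ext h2⟩, rfl⟩
      · rintro ⟨z, ⟨hz, h2⟩, rfl⟩
        exact ⟨⟨z, hz, rfl⟩, congrArg Subtype.val h2⟩
    refine ⟨?_, ?_⟩
    · rw [hset, ncard_val]
      exact C.seven_card e7 e1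
    · rintro _ ⟨a, ha, rfl⟩ _ ⟨b, hb, rfl⟩ hya hyb hab
      obtain ⟨h1, h2⟩ := seven_TK C e7 e1 ha hb (Subtype.ext hya) (Subtype.ext hyb) (fun h => hab (by rw [h]))
      refine ⟨fun h => h1 (hcomm.1 h), ?_⟩
      rw [hset, h2, Set.image_insert_eq, Set.image_insert_eq, Set.image_singleton]
      rfl
  · rintro u hu hu5 hu1 _ ⟨d, hd, rfl⟩ hud
    set u' : ↥N := ⟨u, hu⟩ with hu'
    have e5 : u' ^ 5 = 1 := Subtype.ext hu5
    have e1 : u' ≠ 1 := fun h => hu1 (congrArg Subtype.val h)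
    obtain ⟨h1, h2⟩ := C.five_far e5 e1 (d := d) ⟨hd, Subtype.ext hud⟩
    rw [← h1, ← h2, ← ncard_val, ← ncard_val]
    constructor
    · congr 1
      ext x
      constructor
      · rintro ⟨⟨z, hz, rfl⟩, h3⟩
        exact ⟨z, ⟨hz, Subtype.ext h3⟩, rfl⟩
      · rintro ⟨z, ⟨hz, h3⟩, rfl⟩
        exact ⟨⟨z, hz, rfl⟩, congrArg Subtype.val h3⟩
    · congr 1
      ext x
      constructor
      · rintro ⟨⟨z, hz, rfl⟩, h3, h4⟩
        exact ⟨z, ⟨⟨hz, Subtype.ext h3⟩, fun h => h4 (hcomm.2 h)⟩, rfl⟩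
      · rintro ⟨z, ⟨⟨hz, h3⟩, h4⟩, rfl⟩
        exact ⟨⟨z, hz, rfl⟩, congrArg Subtype.val h3, fun h => h4 (hcomm.1 h)⟩
  · rintro u hu hu5 hu1 d E hE hd hud hcl hn
    set u' : ↥N := ⟨u, hu⟩ with hu'
    have e5 : u' ^ 5 = 1 := Subtype.ext hu5
    have e1 : u' ≠ 1 := fun h => hu1 (congrArg Subtype.val h)
    obtain ⟨d', hd', rfl⟩ := hE hd
    have hEi : ∀ x ∈ E, ∃ h : x ∈ N, (⟨x, h⟩ : ↥N) ∈ TK e := fun x hx => (mem_D e).1 (hE hx)
    obtain ⟨h1, h2⟩ := five_TK C e5 e1 (d := d') (E := {x : ↥N | x.1 ∈ E}) (by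
        intro x hx
        obtain ⟨_, h⟩ := hEi x.1 hx
        exact h) hd (Subtype.ext hud) (fun x hx => hcl x.1 hx)
        (fun x hx hxd h => hn x.1 hx (fun h' => hxd (Subtype.ext h')) (hcomm.2 h))
    have h3 : {x | x ∈ E ∧ u * x = x * u} = Subtype.val '' {x : ↥N | x ∈ {x : ↥N | x.1 ∈ E} ∧ u' * x = x * u'} := by
      ext x
      constructor
      · rintro ⟨h3, h4⟩
        obtain ⟨h5, -⟩ := hEi x h3
        exact ⟨⟨x, h5⟩, ⟨h3, Subtype.ext h4⟩, rfl⟩
      · rintro ⟨z, ⟨h3, h4⟩, rfl⟩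
        exact ⟨h3, congrArg Subtype.val h4⟩
    rw [h3, ncard_val]
    obtain ⟨k, hk⟩ := h1
    omega

end G

end Cfsg.Agent.H153.FH
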