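import Cfsg.Agent.H153.FH.Fi
import Cfsg.Agent.H836.Cent
import Cfsg.Agent.OddHalf.Table.OutFi22
import Cfsg.Agent.H775.EPF.Defs2

/-!
# S5745, row (2E6(2), Fi22): the facts on `H` (helper153)

`hSide`, `hSide2` : the structures `HSide`, `HSide2` of helper775 for `N ≤ H`, `N` isomorphic to `Fi22`, normalised by `H`,
with trivial centralizer in `H`.
-/

set_option autoImplicit false
set_option linter.unusedSectionVars false

namespace Cfsg.Agent.H153.FH

open Subgroup Cfsg Cfsg.Agent.LThreeFi22
open Cfsg.Agent.KFacts.FiTT (TK)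
open Cfsg.Agent.H775.EPF (HSide HSide2)

universe v

section K

variable {K : Type v} [Group K] {T : Set K}

/-- automorphisms of order 3 are inner -/
theorem inner_of_cube (e : K ≃* Spor.Fi22) {α : MulAut K} (h : α ^ 3 = 1) : ∃ g : K, α = MulAut.conj g := by
  set β : MulAut Spor.Fi22 := MulAut.congr e α with hβ
  have h3 : β ^ 3 = 1 := by rw [hβ, ← map_pow, h, map_one]
  have key : ∃ g : Spor.Fi22, β = MulAut.conj g := by
    by_contra hcon
    push Not at hcon
    obtain ⟨x, hx⟩ := Cfsg.Agent.OddHalf.Table.OutFi22.mul_outer β β hcon hcon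
    apply hcon x⁻¹
    rw [map_inv, ← hx]
    rw [eq_inv_iff_mul_eq_one, ← mul_assoc]
    rw [pow_succ, pow_two] at h3
    exact h3
  obtain ⟨g, hg⟩ := key
  refine ⟨e.symm g, ?_⟩
  apply MulEquiv.ext
  intro k
  have h1 := congrArg (fun γ : MulAut Spor.Fi22 => γ (e k)) hg
  have h2 : e (α k) = g * e k * g⁻¹ := by
    have h3 : β (e k) = e (α k) := by
      rw [hβ]
      change e (α (e.symm (e k))) = _
      rw [e.symm_apply_apply]
    rw [← h3]
    exact h1
  apply e.injective
  rw [h2, MulAut.conj_apply, map_mul, map_mul, map_inv, e.apply_symm_apply]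

/-- the involutions commuting with an element of order 7 -/
theorem inv_seven (e : K ≃* Spor.Fi22) {x a b y : K} (hx : x ^ 7 = 1) (hx1 : x ≠ 1) (ha : a ∈ TK e) (hb : b ∈ TK e)
    (hxa : x * a = a * x) (hxb : x * b = b * x) (hab : a * b ≠ b * a) (hy : y * y = 1) (hxy : x * y = y * x) :
    y = 1 ∨ y = a ∨ y = b ∨ y = a * b * a := by
  have I := Cfsg.Agent.H836.inv_of_iso e
  have C := I.ctx
  have hfin := C.finite
  have h42 := I.card_seven hx hx1
  have aa := C.sq a ha
  have bb := C.sq b hb
  have hc3 := C.cube ha hb hab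
  have hbr : a * b * a = b * a * b := (C.three a ha b hb).resolve_left hab
  have hp7 : Fact (Nat.Prime 7) := ⟨by norm_num⟩
  have hord : orderOf x = 7 := orderOf_eq_prime hx hx1
  -- the seven elements times the six elements
  let S : Fin 6 → K := ![1, a * b, b * a, a, b, a * b * a]
  have hSc : ∀ i, x * S i = S i * x := by
    intro i
    fin_cases i
    · change x * 1 = 1 * x
      rw [mul_one, one_mul]
    · exact ((show Commute x a from hxa).mul_right hxb).eq
    · exact ((show Commute x b from hxb).mul_right hxa).eq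
    · exact hxa
    · exact hxb
    · exact (((show Commute x a from hxa).mul_right hxb).mul_right hxa).eq
  have hS2 : ∀ i, S i ^ 6 = 1 := by
    intro i
    have hp : ∀ s : K, s * s = 1 → s ^ 6 = 1 := by
      intro s hs
      rw [show (6 : ℕ) = 2 * 3 from rfl, pow_mul, pow_two, hs, one_pow]
    have hq : ∀ s : K, s ^ 3 = 1 → s ^ 6 = 1 := by
      intro s hs
      rw [show (6 : ℕ) = 3 * 2 from rfl, pow_mul, hs, one_pow]
    fin_cases i
    · exact one_pow 6
    · exact hq _ hc3
    · apply hq
      have h1 : b * a = (a * b)⁻¹ := by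
        rw [mul_inv_rev, C.inv ha, C.inv hb]
      change (b * a) ^ 3 = 1
      rw [h1, inv_pow, hc3, inv_one]
    · exact hp _ aa
    · exact hp _ bb
    · apply hp
      calc a * b * a * (a * b * a) = a * b * (a * a) * b * a := by group
        _ = a * (b * b) * a := by rw [aa]; group
        _ = 1 := by rw [bb, mul_one, aa]
  have hSi : Function.Injective S := by
    have e1 : a * b ≠ 1 := fun h => hab (by
      have : b = a := by
        calc b = (a * a) * b := by rw [aa, one_mul]
          _ = a * (a * b) := by group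
          _ = a := by rw [h, mul_one]
      rw [this])
    have e2 : b * a ≠ 1 := fun h => hab (by
      have : a = b := by
        calc a = (b * b) * a := by rw [bb, one_mul]
          _ = b * (b * a) := by group
          _ = b := by rw [h, mul_one]
      rw [this])
    have a1 := C.ne1 a ha
    have b1 := C.ne1 b hb
    have nab : a ≠ b := fun h => hab (by rw [h])
    have c1 : a * b * a ≠ 1 := by
      intro h
      apply b1
      calc b = a * (a * b * a) * a := by
            calc b = (a * a) * b * (a * a) := by rw [aa, one_mul, mul_one]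
              _ = a * (a * b * a) * a := by group
        _ = 1 := by rw [h, mul_one, aa]
    have c2 : a * b * a ≠ a := by
      intro h
      apply e1
      exact mul_right_cancel (h.trans (one_mul a).symm)
    have c3 : a * b * a ≠ b := by
      intro h
      apply hab
      calc a * b = a * b * (a * a) := by rw [aa, mul_one]
        _ = (a * b * a) * a := by group
        _ = b * a := by rw [h]
    have c4 : a * b ≠ a * b * a := fun h => a1 (mul_left_cancel (h.symm.trans (mul_one _).symm))
    have c5 : b * a ≠ a * b * a := by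
      rw [hbr]
      intro h
      exact b1 (mul_left_cancel (h.symm.trans (mul_one _).symm))
    have c6 : a * b ≠ a := fun h => b1 (mul_left_cancel (h.trans (mul_one a).symm))
    have c7 : a * b ≠ b := fun h => a1 (mul_right_cancel (h.trans (one_mul b).symm))
    have c8 : b * a ≠ a := fun h => b1 (mul_right_cancel (h.trans (one_mul a).symm))
    have c9 : b * a ≠ b := fun h => a1 (mul_left_cancel (h.trans (mul_one b).symm))
    intro i j h
    fin_cases i <;> fin_cases j <;> first
      | rfl
      | exact absurd h e1 | exact absurd h e1.symm | exact absurd h e2 | exact absurd h e2.symm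
      | exact absurd h a1 | exact absurd h a1.symm | exact absurd h b1 | exact absurd h b1.symm
      | exact absurd h c1 | exact absurd h c1.symm | exact absurd h hab | exact absurd h hab.symm
      | exact absurd h c2 | exact absurd h c2.symm | exact absurd h c3 | exact absurd h c3.symm
      | exact absurd h c4 | exact absurd h c4.symm | exact absurd h c5 | exact absurd h c5.symm
      | exact absurd h c6 | exact absurd h c6.symm | exact absurd h c7 | exact absurd h c7.symm
      | exact absurd h c8 | exact absurd h c8.symm | exact absurd h c9 | exact absurd h c9.symm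
      | exact absurd h nab | exact absurd h nab.symm
  let F : Fin 7 × Fin 6 → ↥(centralizer ({x} : Set K)) := fun p =>
    ⟨x ^ p.1.val * S p.2, by
      rw [mem_centralizer_singleton_iff]
      exact (((Commute.refl x).pow_left p.1.val).mul_left (show Commute (S p.2) x from (hSc p.2).symm)).eq⟩
  have hFi : Function.Injective F := by
    rintro ⟨i, j⟩ ⟨i', j'⟩ h
    have h1 : x ^ i.val * S j = x ^ i'.val * S j' := congrArg Subtype.val h
    -- take the sixth power
    have hp : ∀ (i : Fin 7) (j : Fin 6), (x ^ i.val * S j) ^ 6 = x ^ (i.val * 6) := by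
      intro i j
      rw [(show Commute (x ^ i.val) (S j) from (show Commute x (S j) from hSc j).pow_left _).mul_pow, hS2, mul_one,
        ← pow_mul]
    have h2 := congrArg (· ^ 6) h1
    simp only [hp] at h2
    rw [pow_eq_pow_iff_modEq, hord] at h2
    have h3 : i = i' := by
      apply Fin.ext
      have := i.2
      have := i'.2
      unfold Nat.ModEq at h2
      omega
    subst h3
    have h4 := hSi (mul_left_cancel h1)
    rw [h4]
  have hFs : Function.Surjective F := by
    have : Fintype ↥(centralizer ({x} : Set K)) := Fintype.ofFinite _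
    refine ((Fintype.bijective_iff_injective_and_card F).2 ⟨hFi, ?_⟩).2
    rw [← Nat.card_eq_fintype_card (α := ↥(centralizer ({x} : Set K))), h42]
    decide
  obtain ⟨⟨i, j⟩, hij⟩ := hFs ⟨y, mem_centralizer_singleton_iff.2 hxy.symm⟩
  have h1 : x ^ i.val * S j = y := congrArg Subtype.val hij
  have h2 : x ^ (i.val * 6) = 1 := by
    have hp : (x ^ i.val * S j) ^ 6 = x ^ (i.val * 6) := by
      rw [(show Commute (x ^ i.val) (S j) from (show Commute x (S j) from hSc j).pow_left _).mul_pow, hS2, mul_one,
        ← pow_mul]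
    rw [← hp, h1, show (6 : ℕ) = 2 * 3 from rfl, pow_mul, pow_two, hy, one_pow]
  have h3 : i.val = 0 := by
    have h4 := orderOf_dvd_of_pow_eq_one h2
    rw [hord] at h4
    have := i.2
    omega
  rw [h3, pow_zero, one_mul] at h1
  have hne : ∀ s : K, s ^ 3 = 1 → s * s = 1 → s = 1 := by
    intro s hs hs'
    rw [pow_succ, pow_two, hs', one_mul] at hs
    exact hs
  fin_cases j
  · exact Or.inl h1.symm
  · left
    have h4 : y = a * b := h1.symm
    exact hne y (by rw [h4, hc3]) hy
  · left
    have h4 : y = b * a := h1.symm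
    apply hne y ?_ hy
    have h5 : b * a = (a * b)⁻¹ := by rw [mul_inv_rev, C.inv ha, C.inv hb]
    rw [h4, h5, inv_pow, hc3, inv_one]
  · exact Or.inr (Or.inl h1.symm)
  · exact Or.inr (Or.inr (Or.inl h1.symm))
  · exact Or.inr (Or.inr (Or.inr h1.symm))

/-- the transpositions commuting with an element of order 5 -/
theorem five_four (C : Ctx K T) {x s t w : K} (hx : x ^ 5 = 1) (hx1 : x ≠ 1) (hs : s ∈ T) (ht : t ∈ T) (hw : w ∈ T)
    (hxs : x * s = s * x) (hxt : x * t = t * x) (hxw : x * w = w * x) (hst : s * t ≠ t * s) (hws : w ≠ s)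
    (hwt : w ≠ t) (hwr : w ≠ s * t * s) :
    w * s = s * w ∨ w * t = t * w ∨ w * (s * t * s) = s * t * s * w := by
  have hfin := C.finite
  have fs : s ∈ Fx T x := ⟨hs, hxs⟩
  have ft : t ∈ Fx T x := ⟨ht, hxt⟩
  have fw : w ∈ Fx T x := ⟨hw, hxw⟩
  have ss := C.sq s hs
  have fr : s * t * s ∈ Fx T x := by
    have := C.fx_conj (x := s) hxs.symm ft
    rwa [C.inv hs] at this
  obtain ⟨c, hc, hcs, h1, h2⟩ := C.five_common hx fs ft hst
  have hct : c ≠ t := by
    rintro rfl
    exact hst h1
  have h3 : c * (s * t * s) = s * t * s * c := by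
    have k1 : Commute c s := h1.symm
    have k2 : Commute c t := h2.symm
    exact ((k1.mul_right k2).mul_right k1).eq
  have hst' : s ≠ t := fun h => hst (by rw [h])
  have hsr : s ≠ s * t * s := by
    intro h
    apply hst
    have h4 : s * t = 1 := mul_right_cancel (h.symm.trans (one_mul s).symm)
    have h5 : t = s := by
      calc t = (s * s) * t := by rw [ss, one_mul]
        _ = s * (s * t) := by group
        _ = s := by rw [h4, mul_one]
    rw [h5]
  have htr : t ≠ s * t * s := by
    intro h
    apply hst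
    calc s * t = s * (s * t * s) := by rw [← h]
      _ = (s * s) * (t * s) := by group
      _ = t * s := by rw [ss, one_mul]
  have hcr : c ≠ s * t * s := by
    intro h
    rw [h] at h1
    apply hst
    -- s commutes with s t s, hence with t
    calc s * t = (s * t * s) * s := by rw [mul_assoc _ s s, ss, mul_one]
      _ = s * (s * t * s) := h1.symm
      _ = (s * s) * (t * s) := by group
      _ = t * s := by rw [ss, one_mul]
  have hN := C.five_link hx hx1 hc
  have hset : ({s, t, s * t * s} : Set K) = {e | e ∈ Fx T x ∧ e ≠ c ∧ c * e = e * c} := by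
    apply Set.eq_of_subset_of_ncard_le
    · rintro z (rfl | rfl | rfl)
      · exact ⟨fs, hcs.symm, h1.symm⟩
      · exact ⟨ft, hct.symm, h2.symm⟩
      · exact ⟨fr, hcr.symm, h3⟩
    · rw [hN, Set.ncard_eq_three.2 ⟨s, t, s * t * s, hst', hsr, htr, rfl⟩]
    · exact Set.toFinite _
  have hmem : ∀ e, e ∈ Fx T x → e ≠ c → c * e = e * c → e = s ∨ e = t ∨ e = s * t * s := by
    intro e h4 h5 h6
    have : e ∈ ({s, t, s * t * s} : Set K) := by
      rw [hset]
      exact ⟨h4, h5, h6⟩
    exact this
  by_cases hwc : w = c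
  · left
    rw [hwc]
    exact h1.symm
  · by_cases h4 : c * w = w * c
    · rcases hmem w fw hwc h4 with h5 | h5 | h5
      · exact absurd h5 hws
      · exact absurd h5 hwt
      · exact absurd h5 hwr
    · obtain ⟨f, hf, hfc, h5, h6⟩ := C.five_common hx hc fw h4
      rcases hmem f hf hfc h5 with rfl | rfl | rfl
      · exact Or.inl h6
      · exact Or.inr (Or.inl h6)
      · exact Or.inr (Or.inr h6)

end K

section G

variable {G : Type v} [Group G] {H N : Subgroup G} (e : ↥N ≃* Spor.Fi22)

theorem norm_mem (hle : N ≤ H) (hn : ∀ h ∈ H, ∀ n ∈ N, h * n * h⁻¹ ∈ N) {h : G} (hh : h ∈ H) :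
    h ∈ normalizer (N : Set G) := by
  rw [mem_normalizer_iff]
  intro n
  constructor
  · exact hn h hh n
  · intro h1
    have h2 := hn h⁻¹ (inv_mem hh) _ h1
    rw [inv_inv] at h2
    have h3 : h⁻¹ * (h * n * h⁻¹) * h = n := by group
    rwa [h3] at h2

/-- **the facts on `H`** -/
theorem hSide (hle : N ≤ H) (hn : ∀ h ∈ H, ∀ n ∈ N, h * n * h⁻¹ ∈ N)
    (hC : ∀ h ∈ H, (∀ n ∈ N, h * n = n * h) → h = 1) : HSide H N (D e) := by
  have F := fiSet e
  have C := Inst.ctx e
  have hfin := C.finite
  refine
    { le := hle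
      cube := ?_
      sub := F.sub
      conj := fun h hh a ha => F.conj h (norm_mem hle hn hh) a ha
      inv := fun a ha => orderOf_eq_prime (by rw [pow_two, F.sq a ha]) (F.ne1 a ha)
      tri := ?_
      card := by rw [F.ncard]; norm_num
      comm := ?_
      seven := ?_
      five := ?_ }
  · intro x hx hx3
    have hxN := norm_mem hle hn hx
    set α : MulAut ↥N := conjN hxN with hα
    have hα3 : α ^ 3 = 1 := by
      apply MulEquiv.ext
      intro n
      apply Subtype.ext
      change x * (x * (x * n.1 * x⁻¹) * x⁻¹) * x⁻¹ = n.1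
      calc x * (x * (x * n.1 * x⁻¹) * x⁻¹) * x⁻¹ = x ^ 3 * n.1 * (x ^ 3)⁻¹ := by
            rw [pow_succ, pow_two]; group
        _ = n.1 := by rw [hx3, one_mul, inv_one, mul_one]
    obtain ⟨g, hg⟩ := inner_of_cube e hα3
    have h1 : ∀ n ∈ N, x * n * x⁻¹ = g.1 * n * (g.1)⁻¹ := by
      intro n hnN
      have h2 := congrArg (fun β : MulAut ↥N => ((β ⟨n, hnN⟩ : ↥N) : G)) hg
      exact h2
    have h2 : (g.1)⁻¹ * x = 1 := by
      apply hC _ (H.mul_mem (H.inv_mem (hle g.2)) hx)
      intro n hnN
      have h3 := h1 n hnN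
      calc (g.1)⁻¹ * x * n = (g.1)⁻¹ * (x * n * x⁻¹) * x := by group
        _ = (g.1)⁻¹ * (g.1 * n * (g.1)⁻¹) * x := by rw [h3]
        _ = n * ((g.1)⁻¹ * x) := by group
    have h3 : x = g.1 := (inv_mul_eq_one.1 h2).symm
    rw [h3]
    exact g.2
  · intro a ha b hb
    by_cases h : a * b = b * a
    · exact Or.inl h
    · exact Or.inr (F.cube a ha b hb h)
  · rintro _ ⟨a, ha, rfl⟩
    obtain ⟨b, hb, h1, h2⟩ := C.exists_link ha
    exact ⟨b.1, ⟨b, hb, rfl⟩, fun h => h1 (Subtype.ext h), congrArg Subtype.val h2.symm⟩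
  · rintro _ ⟨a, ha, rfl⟩ x hx hx7 hxa
    have e7 : (⟨x, hx⟩ : ↥N) ^ 7 = 1 := by
      apply Subtype.ext
      change x ^ 7 = 1
      rw [← hx7]
      exact pow_orderOf_eq_one x
    have e1 : (⟨x, hx⟩ : ↥N) ≠ 1 := by
      intro h
      have h1 : x = 1 := congrArg Subtype.val h
      rw [h1, orderOf_one] at hx7
      omega
    have hxa' : (⟨x, hx⟩ : ↥N) * a = a * ⟨x, hx⟩ := Subtype.ext hxa
    -- another transposition
    obtain ⟨b, hb, hba⟩ : ∃ b ∈ Fx (TK e) (⟨x, hx⟩ : ↥N), b ≠ a := by
      by_contra hcon
      push Not at hcon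
      have h1 : Fx (TK e) (⟨x, hx⟩ : ↥N) ⊆ {a} := fun b hb => hcon b hb
      have h2 := Set.ncard_le_ncard h1 (Set.toFinite _)
      rw [C.seven_card e7 e1, Set.ncard_singleton] at h2
      omega
    have hab : a * b ≠ b * a := fun h => hba (C.seven_comm e7 e1 ⟨ha, hxa'⟩ hb h)
    refine ⟨b.1, ⟨b, hb.1, rfl⟩, fun h => hab (Subtype.ext h), congrArg Subtype.val hb.2, ?_⟩
    intro y hy hy2 hxy
    have hyy : y * y = 1 := by
      rw [← pow_two, ← hy2]
      exact pow_orderOf_eq_one y
    have h1 := inv_seven e (y := ⟨y, hy⟩) e7 e1 ha hb.1 hxa' hb.2 hab (Subtype.ext hyy) (Subtype.ext hxy)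
    rcases h1 with h1 | h1 | h1 | h1
    · exfalso
      have h2 : y = 1 := congrArg Subtype.val h1
      rw [h2, orderOf_one] at hy2
      omega
    · exact Or.inl (congrArg Subtype.val h1)
    · exact Or.inr (Or.inl (congrArg Subtype.val h1))
    · exact Or.inr (Or.inr (congrArg Subtype.val h1))
  · rintro x hx hx5 _ ⟨s, hs, rfl⟩ _ ⟨t, ht, rfl⟩ _ ⟨w, hw, rfl⟩ hxs hxt hxw hst hws hwt hwr
    have e5 : (⟨x, hx⟩ : ↥N) ^ 5 = 1 := by
      apply Subtype.ext
      change x ^ 5 = 1
      rw [← hx5]
      exact pow_orderOf_eq_one x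
    have e1 : (⟨x, hx⟩ : ↥N) ≠ 1 := by
      intro h
      have h1 : x = 1 := congrArg Subtype.val h
      rw [h1, orderOf_one] at hx5
      omega
    have h1 := five_four C e5 e1 hs ht hw (Subtype.ext hxs) (Subtype.ext hxt) (Subtype.ext hxw)
      (fun h => hst (congrArg Subtype.val h)) (fun h => hws (by rw [h])) (fun h => hwt (by rw [h]))
      (fun h => hwr (congrArg Subtype.val h))
    rcases h1 with h1 | h1 | h1
    · exact Or.inl (congrArg Subtype.val h1)
    · exact Or.inr (Or.inl (congrArg Subtype.val h1))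
    · exact Or.inr (Or.inr (congrArg Subtype.val h1))

/-- **more facts on `H`** -/
theorem hSide2 (hn : ∀ h ∈ H, ∀ n ∈ N, h * n * h⁻¹ ∈ N) : HSide2 H N (D e) := by
  have F := fiSet e
  refine
    { norm := hn
      ne := ?_
      cl := fun a ha b hb => by
        obtain ⟨g, -, hg⟩ := F.trans a ha b hb
        exact ⟨g, hg⟩
      cardC := F.card_cent
      quot := F.quot }
  rw [← Set.ncard_pos (Set.finite_of_ncard_ne_zero (by rw [F.ncard]; norm_num)), F.ncard]
  norm_num

end G

end Cfsg.Agent.H153.FH
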